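import Mathlib

/-!
# S3828, `PSL₂(q)`: sets of traces (helper541)
-/

set_option autoImplicit false

namespace Cfsg.Agent.H541.CrowPsl2

open Finset

section Odd

variable {F : Type*} [Field F] [Fintype F] [DecidableEq F]

/-- the values `u + 1/u` -/
theorem card_split (h2 : (2 : F) ≠ 0) (W : Finset F)
    (hW : ∀ u : F, u ≠ 0 → u ≠ 1 → u ≠ -1 → u + u⁻¹ ∉ W) : 2 * W.card ≤ Fintype.card F + 3 := by
  have h11 : (1 : F) ≠ -1 := by
    intro h
    apply h2
    linear_combination h
  set S : Finset F := univ \ {0, 1, -1} with hS
  have hScard : S.card = Fintype.card F - 3 := by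
    rw [hS, card_sdiff_of_subset (subset_univ _), card_univ]
    congr 1
    rw [card_insert_of_notMem, card_insert_of_notMem, card_singleton]
    · rw [mem_singleton]; exact h11
    · rw [mem_insert, mem_singleton]
      rintro (h | h)
      · exact zero_ne_one h
      · exact one_ne_zero (α := F) (by linear_combination h)
  have h1 : S.card ≤ 2 * (S.image fun u => u + u⁻¹).card := by
    apply card_le_mul_card_image
    intro a ha
    obtain ⟨u, hu, rfl⟩ := mem_image.1 ha
    have hu0 : u ≠ 0 := by
      rintro rfl
      simp [hS] at hu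
    refine (card_le_card (t := {u, u⁻¹}) ?_).trans card_le_two
    intro v hv
    rw [mem_filter] at hv
    obtain ⟨hvS, hv⟩ := hv
    have hv0 : v ≠ 0 := by
      rintro rfl
      simp [hS] at hvS
    rw [mem_insert, mem_singleton]
    have h3 : (v - u) * (v * u - 1) = 0 := by
      field_simp at hv
      linear_combination hv
    rcases mul_eq_zero.1 h3 with h | h
    · left; linear_combination h
    · right; exact eq_inv_of_mul_eq_one_left (by linear_combination h)
  have h2' : Disjoint W (S.image fun u => u + u⁻¹) := by
    rw [disjoint_left]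
    intro a ha hb
    obtain ⟨u, hu, rfl⟩ := mem_image.1 hb
    simp only [hS, mem_sdiff, mem_univ, true_and, mem_insert, mem_singleton, not_or] at hu
    exact hW u hu.1 hu.2.1 hu.2.2 ha
  have h3 := card_le_univ (W ∪ S.image fun u => u + u⁻¹)
  rw [card_union_of_disjoint h2'] at h3
  omega

/-- a quadratic polynomial has many values -/
theorem card_quad (b c : F) : Fintype.card F ≤ 2 * (univ.image fun z : F => z ^ 2 + b * z + c).card := by
  rw [← card_univ]
  apply card_le_mul_card_image
  intro a ha
  obtain ⟨u, -, rfl⟩ := mem_image.1 ha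
  refine (card_le_card (t := {u, -b - u}) ?_).trans card_le_two
  intro v hv
  rw [mem_filter] at hv
  rw [mem_insert, mem_singleton]
  have h3 : (v - u) * (v + u + b) = 0 := by linear_combination hv.2
  rcases mul_eq_zero.1 h3 with h | h
  · left; linear_combination h
  · right; linear_combination h

/-- translates of the squares -/
theorem card_inter (h2 : (2 : F) ≠ 0) {k k' : F} (hk : k ≠ k') (B : Finset F)
    (hB : ∀ t ∈ B, (∃ a, t = k + a ^ 2) ∧ ∃ b, t = k' + b ^ 2) : 4 * B.card ≤ Fintype.card F + 3 := by
  set d := k' - k with hd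
  have hd0 : d ≠ 0 := by
    rw [hd]
    exact sub_ne_zero.2 hk.symm
  have h4 : (4 : F) ≠ 0 := by
    have : (4 : F) = 2 * 2 := by norm_num
    rw [this]
    exact mul_ne_zero h2 h2
  set S : Finset F := univ.erase 0 with hS
  have hScard : S.card = Fintype.card F - 1 := by rw [hS, card_erase_of_mem (mem_univ _), card_univ]
  set φ : F → F := fun u => k + ((u + d / u) / 2) ^ 2 with hφ
  -- the fibres
  have key : ∀ a b : F, k + a ^ 2 = k' + b ^ 2 → a + b ≠ 0 ∧ φ (a + b) = k + a ^ 2 := by
    intro a b h
    have h5 : (a + b) * (a - b) = d := by rw [hd]; linear_combination h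
    have h6 : a + b ≠ 0 := by
      intro h7
      rw [h7, zero_mul] at h5
      exact hd0 h5.symm
    refine ⟨h6, ?_⟩
    have h7 : d / (a + b) = a - b := by rw [← h5, mul_div_cancel_left₀ _ h6]
    rw [hφ]
    simp only
    rw [h7]
    field_simp
    ring
  have hfib : ∀ t ∈ B, ∃ a b : F, t = k + a ^ 2 ∧ t = k' + b ^ 2 ∧ (∀ u ∈ ({a + b, a - b, -a + b, -a - b} : Finset F),
      u ∈ S ∧ φ u = t) := by
    intro t ht
    obtain ⟨⟨a, ha⟩, b, hb⟩ := hB t ht
    refine ⟨a, b, ha, hb, ?_⟩
    intro u hu
    rw [mem_insert, mem_insert, mem_insert, mem_singleton] at hu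
    have h5 : k + a ^ 2 = k' + b ^ 2 := ha.symm.trans hb
    rcases hu with rfl | rfl | rfl | rfl
    · obtain ⟨h6, h7⟩ := key a b h5
      exact ⟨by simp [hS, h6], by rw [h7, ha]⟩
    · obtain ⟨h6, h7⟩ := key a (-b) (by rw [neg_sq]; exact h5)
      rw [← sub_eq_add_neg] at h6 h7
      exact ⟨by simp [hS, h6], by rw [h7, ha]⟩
    · obtain ⟨h6, h7⟩ := key (-a) b (by rw [neg_sq]; exact h5)
      exact ⟨by simp [hS, h6], by rw [h7, neg_sq, ha]⟩
    · obtain ⟨h6, h7⟩ := key (-a) (-b) (by rw [neg_sq, neg_sq]; exact h5)
      rw [← sub_eq_add_neg] at h6 h7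
      exact ⟨by simp [hS, h6], by rw [h7, neg_sq, ha]⟩
  set B1 := B.filter fun t => t = k ∨ t = k' with hB1
  set B0 := B.filter fun t => ¬ (t = k ∨ t = k') with hB0
  have hBc : B.card = B1.card + B0.card := (card_filter_add_card_filter_not _).symm
  have hB1c : B1.card ≤ 2 := by
    refine (card_le_card (t := {k, k'}) ?_).trans card_le_two
    intro t ht
    rw [mem_insert, mem_singleton]
    exact (mem_filter.1 ht).2
  set S1 := S.filter fun u => φ u ∈ B1
  set S0 := S.filter fun u => φ u ∈ B0
  have hS01 : S1.card + S0.card ≤ S.card := by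
    rw [← card_union_of_disjoint]
    · exact card_le_card (union_subset (filter_subset _ _) (filter_subset _ _))
    · rw [disjoint_left]
      intro u h5 h6
      have h7 := (mem_filter.1 (mem_filter.1 h5).2).2
      have h8 := (mem_filter.1 (mem_filter.1 h6).2).2
      exact h8 h7
  have h5 : 2 * B1.card ≤ S1.card := by
    apply mul_card_image_le_card_of_maps_to (f := φ)
    · intro u hu
      exact (mem_filter.1 hu).2
    · intro t ht
      obtain ⟨a, b, ha, hb, hu⟩ := hfib t (mem_filter.1 ht).1
      have h6 : ({a + b, -a - b} : Finset F).card = 2 := by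
        apply card_pair
        intro h7
        have h8 := (hu (a + b) (by simp)).1
        have h9 : a + b = 0 := by
          apply mul_left_cancel₀ h2
          linear_combination h7
        rw [h9] at h8
        simp [hS] at h8
      rw [← h6]
      apply card_le_card
      intro u hu'
      have h7 : u ∈ ({a + b, a - b, -a + b, -a - b} : Finset F) := by
        rw [mem_insert, mem_singleton] at hu'
        rcases hu' with rfl | rfl <;> simp
      obtain ⟨h8, h9⟩ := hu u h7
      rw [mem_filter, mem_filter]
      exact ⟨⟨h8, by rwa [h9]⟩, h9⟩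
  have h6 : 4 * B0.card ≤ S0.card := by
    apply mul_card_image_le_card_of_maps_to (f := φ)
    · intro u hu
      exact (mem_filter.1 hu).2
    · intro t ht
      obtain ⟨a, b, ha, hb, hu⟩ := hfib t (mem_filter.1 ht).1
      have ht2 := (mem_filter.1 ht).2
      have ha0 : a ≠ 0 := by
        rintro rfl
        exact ht2 (Or.inl (by rw [ha]; ring))
      have hb0 : b ≠ 0 := by
        rintro rfl
        exact ht2 (Or.inr (by rw [hb]; ring))
      have h7 : ∀ x : F, x ≠ 0 → 2 * x ≠ 0 := fun x hx => mul_ne_zero h2 hx
      have h8 : a + b ≠ 0 := by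
        have := (hu (a + b) (by simp)).1
        simpa [hS] using this
      have h9 : a - b ≠ 0 := by
        have := (hu (a - b) (by simp)).1
        simpa [hS] using this
      have h10 : ({a + b, a - b, -a + b, -a - b} : Finset F).card = 4 := by
        rw [card_insert_of_notMem, card_insert_of_notMem, card_insert_of_notMem, card_singleton]
        · rw [mem_singleton]
          intro h
          exact h7 b hb0 (by linear_combination h)
        · rw [mem_insert, mem_singleton]
          rintro (h | h)
          · exact h7 _ h9 (by linear_combination h)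
          · exact h7 a ha0 (by linear_combination h)
        · rw [mem_insert, mem_insert, mem_singleton]
          rintro (h | h | h)
          · exact h7 b hb0 (by linear_combination h)
          · exact h7 a ha0 (by linear_combination h)
          · exact h7 _ h8 (by linear_combination h)
      rw [← h10]
      apply card_le_card
      intro u hu'
      obtain ⟨h11, h12⟩ := hu u hu'
      rw [mem_filter, mem_filter]
      exact ⟨⟨h11, by rwa [h12]⟩, h12⟩
  omega

end Odd

/-- **Odd characteristic, `q ≥ 9`.** -/
theorem odd_false {F : Type*} [Field F] [Fintype F] (h2 : (2 : F) ≠ 0) (hodd : Fintype.card F % 2 = 1)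
    (hq : 9 ≤ Fintype.card F) (T : Set F) (hT : ∀ x ∈ T, ∀ e : F, e ^ 2 - x * e + 1 ≠ 0)
    (hc : ∀ x ∈ T, ∀ y ∈ T, ∀ z : F, x ^ 2 + y ^ 2 + z ^ 2 - x * y * z - 2 ∈ T ∨
      x ^ 2 + y ^ 2 + z ^ 2 - x * y * z - 2 = 2 ∨ x ^ 2 + y ^ 2 + z ^ 2 - x * y * z - 2 = -2) : T = ∅ := by
  classical
  rw [Set.eq_empty_iff_forall_notMem]
  intro x hx
  have h4 : (4 : F) ≠ 0 := by
    have : (4 : F) = 2 * 2 := by norm_num
    rw [this]
    exact mul_ne_zero h2 h2
  have hsq : ∀ y ∈ T, y ^ 2 ≠ 4 := by
    intro y hy h
    apply hT y hy (y / 2)
    field_simp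
    linear_combination -h
  -- the set `W`
  set W : Finset F := univ.filter fun t => t ∈ T ∨ t = 2 ∨ t = -2 with hW
  have hWc : 2 * W.card ≤ Fintype.card F + 3 := by
    apply card_split h2
    intro u hu0 hu1 hu2 hu
    rw [hW, mem_filter] at hu
    rcases hu.2 with h | h | h
    · apply hT _ h u
      field_simp
      ring
    · apply hu1
      have h3 : (u - 1) ^ 2 = 0 := by
        field_simp at h
        linear_combination h
      have := pow_eq_zero_iff (by norm_num) |>.1 h3
      linear_combination this
    · apply hu2
      have h3 : (u + 1) ^ 2 = 0 := by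
        field_simp at h
        linear_combination h
      have := pow_eq_zero_iff (by norm_num) |>.1 h3
      linear_combination this
  -- the sets `A y`
  set A : F → Finset F := fun y => univ.image fun z : F => z ^ 2 + (-(x * y)) * z + (x ^ 2 + y ^ 2 - 2) with hA
  have hAW : ∀ y ∈ T, A y ⊆ W := by
    intro y hy t ht
    obtain ⟨z, -, rfl⟩ := mem_image.1 ht
    rw [hW, mem_filter]
    refine ⟨mem_univ _, ?_⟩
    have h3 := hc x hx y hy z
    have h5 : z ^ 2 + -(x * y) * z + (x ^ 2 + y ^ 2 - 2) = x ^ 2 + y ^ 2 + z ^ 2 - x * y * z - 2 := by ring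
    rw [h5]
    exact h3
  have hAc : ∀ y, Fintype.card F ≤ 2 * (A y).card := fun y => card_quad _ _
  -- the traces are `± x`
  have hT2 : ∀ y ∈ T, y ^ 2 = x ^ 2 := by
    intro y hy
    by_contra hne
    have h3 : 4 * (A x ∩ A y).card ≤ Fintype.card F + 3 := by
      apply card_inter h2 (k := 2 - (x ^ 2 - 4) * (x ^ 2 - 4) / 4) (k' := 2 - (x ^ 2 - 4) * (y ^ 2 - 4) / 4)
      · intro h
        apply hne
        have h5 : (x ^ 2 - 4) * (x ^ 2 - y ^ 2) = 0 := by
          field_simp at h
          linear_combination -h
        rcases mul_eq_zero.1 h5 with h6 | h6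
        · exact absurd (by linear_combination h6) (hsq x hx)
        · linear_combination -h6
      · intro t ht
        obtain ⟨h5, h6⟩ := mem_inter.1 ht
        obtain ⟨z, -, rfl⟩ := mem_image.1 h5
        obtain ⟨z', -, hz'⟩ := mem_image.1 h6
        refine ⟨⟨z - x ^ 2 / 2, ?_⟩, z' - x * y / 2, ?_⟩
        · field_simp
          ring
        · rw [← hz']
          field_simp
          ring
    have h5 := card_union_add_card_inter (A x) (A y)
    have h6 := card_le_card (union_subset (hAW x hx) (hAW y hy))
    have h7 := hAc x
    have h8 := hAc y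
    omega
  have h3 : W.card ≤ 4 := by
    refine (card_le_card (t := {x, -x, 2, -2}) ?_).trans card_le_four
    intro t ht
    rw [hW, mem_filter] at ht
    rw [mem_insert, mem_insert, mem_insert, mem_singleton]
    rcases ht.2 with h | h | h
    · have h5 : (t - x) * (t + x) = 0 := by linear_combination hT2 t h
      rcases mul_eq_zero.1 h5 with h6 | h6
      · left; linear_combination h6
      · right; left; linear_combination h6
    · right; right; left; exact h
    · right; right; right; exact h
  have h5 := card_le_card (hAW x hx)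
  have h6 := hAc x
  omega

/-- **Characteristic two, `q ≥ 8`.** -/
theorem even_false {F : Type*} [Field F] [Fintype F] (h2 : (2 : F) = 0)
    (hq : 8 ≤ Fintype.card F) (T : Set F) (hT : ∀ x ∈ T, ∀ e : F, e ^ 2 + x * e + 1 ≠ 0)
    (hc : ∀ x ∈ T, ∀ z : F, z ^ 2 + x ^ 2 * z ∈ T ∨ z ^ 2 + x ^ 2 * z = 0) : T = ∅ := by
  classical
  rw [Set.eq_empty_iff_forall_notMem]
  intro x hx
  have hT0 : ∀ y ∈ T, y ≠ 0 := by
    rintro y hy rfl
    exact hT 0 hy 1 (by linear_combination h2)
  -- the set `W`
  set W : Finset F := univ.filter fun t => t ∈ T ∨ t = 0 with hW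
  have hWc : 2 * W.card ≤ Fintype.card F + 2 := by
    set S : Finset F := univ \ {0, 1} with hS
    have hScard : S.card = Fintype.card F - 2 := by
      rw [hS, card_sdiff_of_subset (subset_univ _), card_univ]
      congr 1
      exact card_pair zero_ne_one
    have h1 : S.card ≤ 2 * (S.image fun u => u + u⁻¹).card := by
      apply card_le_mul_card_image
      intro a ha
      obtain ⟨u, hu, rfl⟩ := mem_image.1 ha
      have hu0 : u ≠ 0 := by
        rintro rfl
        simp [hS] at hu
      refine (card_le_card (t := {u, u⁻¹}) ?_).trans card_le_two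
      intro v hv
      rw [mem_filter] at hv
      obtain ⟨hvS, hv⟩ := hv
      have hv0 : v ≠ 0 := by
        rintro rfl
        simp [hS] at hvS
      rw [mem_insert, mem_singleton]
      have h3 : (v - u) * (v * u - 1) = 0 := by
        field_simp at hv
        linear_combination hv
      rcases mul_eq_zero.1 h3 with h | h
      · left; linear_combination h
      · right; exact eq_inv_of_mul_eq_one_left (by linear_combination h)
    have h2' : Disjoint W (S.image fun u => u + u⁻¹) := by
      rw [disjoint_left]
      intro a ha hb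
      obtain ⟨u, hu, rfl⟩ := mem_image.1 hb
      simp only [hS, mem_sdiff, mem_univ, true_and, mem_insert, mem_singleton, not_or] at hu
      have hu0 := hu.1
      rcases (mem_filter.1 ha).2 with h | h
      · apply hT _ h u
        field_simp
        linear_combination (1 + u ^ 2) * h2
      · apply hu.2
        have h3 : (u - 1) ^ 2 = 0 := by
          field_simp at h
          linear_combination h - u * h2
        have := pow_eq_zero_iff (by norm_num) |>.1 h3
        linear_combination this
    have h3 := card_le_univ (W ∪ S.image fun u => u + u⁻¹)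
    rw [card_union_of_disjoint h2'] at h3
    omega
  -- the additive groups
  let H : F → AddSubgroup F := fun y => AddMonoidHom.range
    ({ toFun := fun z => z ^ 2 + y ^ 2 * z
       map_zero' := by ring
       map_add' := fun a b => by linear_combination a * b * h2 } : F →+ F)
  have hHmem : ∀ y t, t ∈ H y ↔ ∃ z, z ^ 2 + y ^ 2 * z = t := fun y t => Iff.rfl
  have hHW : ∀ y ∈ T, (H y : Set F) ⊆ (W : Set F) := by
    rintro y hy _ ⟨z, rfl⟩
    simp only [hW, coe_filter, mem_univ, true_and, Set.mem_setOf_eq]
    exact hc y hy z
  have hHc : ∀ y ∈ T, 2 * Nat.card (H y) = Fintype.card F := by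
    intro y hy
    have hy0 := hT0 y hy
    have h3 : Nat.card (H y) * Nat.card (AddMonoidHom.ker
        ({ toFun := fun z => z ^ 2 + y ^ 2 * z
           map_zero' := by ring
           map_add' := fun a b => by linear_combination a * b * h2 } : F →+ F)) = Nat.card F := by
      rw [← AddSubgroup.index_ker]
      exact AddSubgroup.index_mul_card _
    have h4 : Nat.card (AddMonoidHom.ker
        ({ toFun := fun z => z ^ 2 + y ^ 2 * z
           map_zero' := by ring
           map_add' := fun a b => by linear_combination a * b * h2 } : F →+ F)) = 2 := by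
      have h5 : ((AddMonoidHom.ker
        ({ toFun := fun z => z ^ 2 + y ^ 2 * z
           map_zero' := by ring
           map_add' := fun a b => by linear_combination a * b * h2 } : F →+ F) : AddSubgroup F) : Set F) =
          {0, y ^ 2} := by
        ext z
        rw [SetLike.mem_coe, AddMonoidHom.mem_ker, Set.mem_insert_iff, Set.mem_singleton_iff]
        show z ^ 2 + y ^ 2 * z = 0 ↔ _
        constructor
        · intro h
          have h6 : z * (z - y ^ 2) = 0 := by linear_combination h - z * y ^ 2 * h2
          rcases mul_eq_zero.1 h6 with h7 | h7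
          · exact Or.inl h7
          · right; linear_combination h7
        · rintro (rfl | rfl)
          · ring
          · linear_combination y ^ 4 * h2
      have h6 := Set.ncard_pair (a := (0 : F)) (b := y ^ 2) (pow_ne_zero 2 hy0).symm
      rw [← h5] at h6
      exact h6
    rw [h4] at h3
    rw [← Nat.card_eq_fintype_card, ← h3, mul_comm]
  have hxn : (H x : Set F).ncard = Nat.card (H x) := rfl
  -- only one trace
  have hT1 : ∀ y ∈ T, y = x := by
    intro y hy
    by_contra hne
    have h3 : Nat.card (H x ⊓ H y : AddSubgroup F) ∣ Nat.card (H x) := AddSubgroup.card_dvd_of_le inf_le_left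
    have h4 : H x ⊓ H y ≠ H x := by
      intro h
      -- `H x ≤ H y`
      have h5 : ∀ t, t ∈ H y := by
        intro t
        have hne' : x ^ 2 + y ^ 2 ≠ 0 := by
          intro h6
          have h7 : (y - x) ^ 2 = 0 := by linear_combination h6 - x * y * h2
          have := pow_eq_zero_iff (by norm_num) |>.1 h7
          exact hne (by linear_combination this)
        set c := x ^ 2 + y ^ 2 with hcdef
        -- every element is `w ^ 2 + y ^ 2 * w` divided by ...
        have h6 : ∀ z : F, c * z ∈ H y := by
          intro z
          have h7 : z ^ 2 + x ^ 2 * z ∈ H x := ⟨z, rfl⟩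
          rw [← h] at h7
          have h8 := h7.2
          have h9 : z ^ 2 + y ^ 2 * z ∈ H y := ⟨z, rfl⟩
          have h10 := add_mem h8 h9
          have h11 : z ^ 2 + x ^ 2 * z + (z ^ 2 + y ^ 2 * z) = c * z := by
            rw [hcdef]
            linear_combination z ^ 2 * h2
          rwa [h11] at h10
        have h7 := h6 (t / c)
        rwa [mul_div_cancel₀ _ hne'] at h7
      have h6 : H y = ⊤ := by
        rw [eq_top_iff]
        intro t _
        exact h5 t
      have h7 := hHc y hy
      rw [h6, AddSubgroup.card_top, Nat.card_eq_fintype_card] at h7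
      omega
    obtain ⟨m, hm⟩ := h3
    have h5 : m ≠ 1 := by
      rintro rfl
      apply h4
      rw [mul_one] at hm
      exact AddSubgroup.eq_of_le_of_card_ge inf_le_left hm.le
    have h6 := hHc x hx
    have h7 := hHc y hy
    have h8 := Set.ncard_union_add_ncard_inter (H x : Set F) (H y : Set F)
    have h9 : ((H x : Set F) ∩ (H y : Set F)).ncard = Nat.card (H x ⊓ H y : AddSubgroup F) := rfl
    have h10 : ((H x : Set F) ∪ (H y : Set F)).ncard ≤ W.card := by
      rw [← Set.ncard_coe_finset]
      exact Set.ncard_le_ncard (Set.union_subset (hHW x hx) (hHW y hy)) (Set.toFinite _)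
    have h11 : (H y : Set F).ncard = Nat.card (H y) := rfl
    rw [hxn, h11, h9] at h8
    have h12 : 2 ≤ m := by
      have : m ≠ 0 := by
        rintro rfl
        omega
      omega
    have h13 : Nat.card (H x ⊓ H y : AddSubgroup F) * 2 ≤ Nat.card (H x ⊓ H y : AddSubgroup F) * m :=
      Nat.mul_le_mul_left _ h12
    omega
  have h3 : W.card ≤ 2 := by
    refine (card_le_card (t := {x, 0}) ?_).trans card_le_two
    intro t ht
    rw [mem_insert, mem_singleton]
    rcases (mem_filter.1 ht).2 with h | h
    · exact Or.inl (hT1 t h)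
    · exact Or.inr h
  have h5 : (H x : Set F).ncard ≤ W.card := by
    rw [← Set.ncard_coe_finset]
    exact Set.ncard_le_ncard (hHW x hx) (Set.toFinite _)
  have h6 := hHc x hx
  omega

end Cfsg.Agent.H541.CrowPsl2
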