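import Cfsg.Agent.H541.IrrElement
import Cfsg.Agent.Classification.NormalCyclic
import Cfsg.Agent.H351.HalfTransConf
import Cfsg.Agent.Blocks.Basic
import Cfsg.Agent.GpLn.Rank

/-!
# Linear `2`-groups and elements preserving their orbits

Let `q` be an odd prime, `V` a finite `ZMod q`-module, `P` a `2`-subgroup of `GL(V)`, and `y` an
element of `GL(V)` of prime order `r ∤ 2q` mapping every `P`-orbit to itself. Then `y = 1`
(`fixed_of_orbits`).
-/

set_option autoImplicit false

namespace Cfsg.Agent.H541.TwoPowerOrbits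

open Cfsg.Agent.H541.IrrElement

/-! ### Some number theory -/

theorem dvd_of_dvd_mul_odd {m : ℕ} {a b : ℤ} (hb : Odd b) (h : (2 : ℤ) ^ m ∣ a * b) :
    (2 : ℤ) ^ m ∣ a := by
  refine IsCoprime.dvd_of_dvd_mul_right ?_ h
  apply IsCoprime.pow_left
  obtain ⟨k, hk⟩ := hb
  exact ⟨-k, 1, by rw [hk]; ring⟩

/-- Odd exponents. -/
theorem nt_odd {q : ℤ} {m i : ℕ} (hq : Odd q) (hi : Odd i) (h : (2 : ℤ) ^ m ∣ q ^ (2 * i) - 1) :
    (2 : ℤ) ^ m ∣ q ^ 2 - 1 := by
  have h1 : q ^ (2 * i) - 1 = (q ^ 2 - 1) * ∑ k ∈ Finset.range i, (q ^ 2) ^ k := by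
    rw [mul_comm (q ^ 2 - 1), geom_sum_mul, pow_mul]
  rw [h1] at h
  refine dvd_of_dvd_mul_odd ?_ h
  have h2 : ∀ n : ℕ, Odd (∑ k ∈ Finset.range n, (q ^ 2) ^ k) ↔ Odd n := by
    intro n
    induction n with
    | zero => simp
    | succ n ih =>
      rw [Finset.sum_range_succ, Int.odd_add', Nat.odd_add_one, ← ih]
      have h3 : Odd ((q ^ 2) ^ n) := (hq.pow).pow
      simp only [h3, true_iff]
      exact Int.not_odd_iff_even.symm
  exact (h2 i).2 hi

/-- `x ≡ 1` modulo `4`. -/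
theorem nt_half {x : ℤ} {m : ℕ} (h4 : (4 : ℤ) ∣ x - 1) (h : (2 : ℤ) ^ (m + 1) ∣ x ^ 2 - 1) :
    (2 : ℤ) ^ m ∣ x - 1 := by
  obtain ⟨k, hk⟩ := h4
  have h1 : x ^ 2 - 1 = 2 * ((x - 1) * (2 * k + 1)) := by
    have : x = 4 * k + 1 := by linarith
    rw [this]; ring
  rw [h1, pow_succ'] at h
  have h2 := (mul_dvd_mul_iff_left (two_ne_zero' ℤ)).1 h
  exact dvd_of_dvd_mul_odd ⟨k, rfl⟩ h2

theorem four_dvd {q : ℤ} {i : ℕ} (hq : Odd q) (hi : Even i) : (4 : ℤ) ∣ q ^ i - 1 := by
  obtain ⟨k, rfl⟩ := hi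
  have h1 : Odd (q ^ k) := hq.pow
  obtain ⟨l, hl⟩ := h1
  refine ⟨l * l + l, ?_⟩
  rw [pow_add, hl]
  ring

/-- The case of a cyclic group. -/
theorem nt_cyclic {q : ℤ} {m : ℕ} (hq : Odd q)
    (h : ∀ i : ℕ, (2 : ℤ) ^ m ∣ q ^ i - 1 → (2 : ℤ) ^ (m + 1) ∣ q ^ i - 1) :
    (2 : ℤ) ^ m ∣ q ^ 2 - 1 := by
  classical
  -- `q ^ (2 ^ m) ≡ 1`
  have hex : ∃ e : ℕ, (2 : ℤ) ^ m ∣ q ^ (2 ^ e) - 1 := by
    refine ⟨m, ?_⟩
    have : ∀ m : ℕ, (2 : ℤ) ^ m ∣ q ^ (2 ^ m) - 1 := by
      intro m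
      induction m with
      | zero => simp
      | succ m ih =>
        obtain ⟨k, hk⟩ := ih
        have h1 : Odd (q ^ (2 ^ m)) := hq.pow
        obtain ⟨l, hl⟩ := h1
        have h2 : q ^ (2 ^ (m + 1)) - 1 = (q ^ (2 ^ m) - 1) * (q ^ (2 ^ m) + 1) := by
          rw [pow_succ 2 m, pow_mul]; ring
        rw [h2, pow_succ]
        refine mul_dvd_mul ⟨k, hk⟩ ⟨l + 1, ?_⟩
        rw [hl]; ring
    exact this m
  have hspec := Nat.find_spec hex
  have hmin : ∀ e, e < Nat.find hex → ¬ (2 : ℤ) ^ m ∣ q ^ (2 ^ e) - 1 :=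
    fun e he => Nat.find_min hex he
  rcases Nat.lt_or_ge (Nat.find hex) 2 with hlt | hge
  · have h1 : q ^ (2 ^ 1) - 1 = (q ^ (2 ^ 0) - 1) * (q + 1) := by ring
    have h2 : Nat.find hex = 0 ∨ Nat.find hex = 1 := by omega
    rcases h2 with h2 | h2
    · rw [h2] at hspec
      have h3 : q ^ 2 - 1 = q ^ (2 ^ 1) - 1 := by norm_num
      rw [h3, h1]
      exact Dvd.dvd.mul_right hspec _
    · rw [h2] at hspec
      simpa using hspec
  · exfalso
    obtain ⟨e, he⟩ : ∃ e, Nat.find hex = e + 2 := ⟨Nat.find hex - 2, by omega⟩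
    have h1 := h _ hspec
    rw [he] at h1
    have h2 : q ^ (2 ^ (e + 2)) - 1 = (q ^ (2 ^ (e + 1))) ^ 2 - 1 := by
      rw [← pow_mul, ← pow_succ]
    rw [h2] at h1
    refine hmin (e + 1) (by omega) (nt_half (four_dvd hq ?_) h1)
    rw [pow_succ]
    exact even_two.mul_left _

theorem pow_eq_self_iff {X : Type*} [Group X] (x : X) (n : ℕ) :
    x ^ n = x ↔ (orderOf x : ℤ) ∣ (n : ℤ) - 1 := by
  rw [orderOf_dvd_iff_zpow_eq_one, zpow_sub, zpow_one, zpow_natCast, mul_inv_eq_one]

theorem top_of_index_two {X : Type*} [Group X] {A B : Subgroup X} (hA : A.index = 2)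
    (hAB : A ≤ B) {g : X} (hg : g ∉ A) (hgB : g ∈ B) : B = ⊤ := by
  rw [eq_top_iff]
  intro x _
  by_cases hx : x ∈ A
  · exact hAB hx
  · have h1 : x * g⁻¹ ∈ A := by
      rw [Subgroup.mul_mem_iff_of_index_two hA]
      constructor
      · intro h; exact absurd h hx
      · intro h; exact absurd (inv_mem_iff.1 h) hg
    have h2 : x = x * g⁻¹ * g := by group
    rw [h2]
    exact mul_mem (hAB h1) hgB

/-! ### Irreducible `2`-groups all of whose maximal subgroups are irreducible -/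

variable {q : ℕ} {V : Type*} [AddCommGroup V] [Module (ZMod q) V]

/-- The fixed space of `t`. -/
def fix (t : V ≃ₗ[ZMod q] V) : Submodule (ZMod q) V := LinearMap.eqLocus (t : V →ₗ[ZMod q] V) LinearMap.id

theorem mem_fix {t : V ≃ₗ[ZMod q] V} {v : V} : v ∈ fix t ↔ t v = v := Iff.rfl

theorem eq_one_of_fix {t : V ≃ₗ[ZMod q] V} (h : fix t = ⊤) : t = 1 := by
  apply LinearEquiv.ext
  intro v
  have : v ∈ fix t := by rw [h]; exact Submodule.mem_top
  exact mem_fix.1 this

/-- The map to the endomorphism ring. -/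
def toEnd (P : Subgroup (V ≃ₗ[ZMod q] V)) : P →* Module.End (ZMod q) V :=
  (LinearEquiv.automorphismGroup.toLinearMapMonoidHom).comp P.subtype

theorem toEnd_apply (P : Subgroup (V ≃ₗ[ZMod q] V)) (t : P) (v : V) :
    toEnd P t v = (t : V ≃ₗ[ZMod q] V) v := rfl

theorem toEnd_injective (P : Subgroup (V ≃ₗ[ZMod q] V)) : Function.Injective (toEnd P) := by
  intro s t h
  apply Subtype.ext
  apply LinearEquiv.ext
  intro v
  exact LinearMap.congr_fun h v

theorem irr_toEnd [Finite V] {P : Subgroup (V ≃ₗ[ZMod q] V)} (c : P)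
    (h : ∀ W : Submodule (ZMod q) V, (∀ t ∈ Subgroup.zpowers c, ∀ w ∈ W,
      (t : V ≃ₗ[ZMod q] V) w ∈ W) → W = ⊥ ∨ W = ⊤) : Irr (toEnd P c) := by
  intro W hW
  apply h
  intro t ht
  have hfin : Finite (V ≃ₗ[ZMod q] V) := Finite.of_injective
    (fun f : V ≃ₗ[ZMod q] V => (f : V → V)) DFunLike.coe_injective
  rw [← mem_powers_iff_mem_zpowers] at ht
  obtain ⟨n, rfl⟩ := ht
  have : ∀ n : ℕ, ∀ w ∈ W, ((c ^ n : P) : V ≃ₗ[ZMod q] V) w ∈ W := by
    intro n
    induction n with
    | zero => intro w hw; simpa using hw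
    | succ n ih =>
      intro w hw
      rw [pow_succ]
      exact ih _ (hW w hw)
  exact this n

/-- If `V` is irreducible for `P` and for all subgroups of index `2` then all normal abelian
subgroups of `P` are cyclic. -/
theorem cyclic_of_normal [Fact q.Prime] [Finite V] [Nontrivial V]
    (P : Subgroup (V ≃ₗ[ZMod q] V)) (hP : IsPGroup 2 P)
    (hirr : ∀ W : Submodule (ZMod q) V, (∀ t ∈ P, ∀ w ∈ W, t w ∈ W) → W = ⊥ ∨ W = ⊤)
    (hM : ∀ M : Subgroup P, M.index = 2 → ∀ W : Submodule (ZMod q) V,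
      (∀ t ∈ M, ∀ w ∈ W, (t : V ≃ₗ[ZMod q] V) w ∈ W) → W = ⊥ ∨ W = ⊤)
    (A : Subgroup P) (hA : A.Normal) (hAc : IsMulCommutative A) : IsCyclic A := by
  by_contra hnc
  have hfin : Finite (V ≃ₗ[ZMod q] V) := Finite.of_injective
    (fun f : V ≃ₗ[ZMod q] V => (f : V → V)) DFunLike.coe_injective
  obtain ⟨z, b, hz, hzo, hb2, hbz, hconj⟩ := Cfsg.Agent.H351.HT.exists_config hP A hAc hnc
  have hzz : z * z = 1 := by rw [← pow_two, ← hzo, pow_orderOf_eq_one]
  -- `z` acts as `-1`
  have hzneg : ∀ v : V, (z : V ≃ₗ[ZMod q] V) v = -v := by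
    have hinv : ∀ t ∈ P, ∀ w ∈ fix (z : V ≃ₗ[ZMod q] V), t w ∈ fix (z : V ≃ₗ[ZMod q] V) := by
      intro t ht w hw
      rw [mem_fix] at hw ⊢
      have h1 : (⟨t, ht⟩ : P) * z = z * ⟨t, ht⟩ := hz _
      have h2 : t (((z : P) : V ≃ₗ[ZMod q] V) w) = (z : V ≃ₗ[ZMod q] V) (t w) :=
        LinearEquiv.congr_fun (congrArg Subtype.val h1) w
      rw [← h2, hw]
    rcases hirr _ hinv with h | h
    · intro v
      have h1 : v + (z : V ≃ₗ[ZMod q] V) v ∈ fix (z : V ≃ₗ[ZMod q] V) := by
        rw [mem_fix, map_add]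
        have h2 : (z : V ≃ₗ[ZMod q] V) ((z : V ≃ₗ[ZMod q] V) v) = v :=
          LinearEquiv.congr_fun (congrArg Subtype.val hzz) v
        rw [h2, add_comm]
      rw [h] at h1
      have h3 := (Submodule.mem_bot _).1 h1
      exact eq_neg_of_add_eq_zero_right h3
    · exfalso
      have h1 : z = 1 := Subtype.ext (eq_one_of_fix h)
      rw [h1, orderOf_one] at hzo
      omega
  have hbfix : fix (b : V ≃ₗ[ZMod q] V) = ⊥ ∨ fix (b : V ≃ₗ[ZMod q] V) = ⊤ := by
    have hinv : ∀ t ∈ Subgroup.centralizer ({b} : Set P), ∀ w ∈ fix (b : V ≃ₗ[ZMod q] V),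
        (t : V ≃ₗ[ZMod q] V) w ∈ fix (b : V ≃ₗ[ZMod q] V) := by
      intro t ht w hw
      rw [mem_fix] at hw ⊢
      have h1 : t * b = b * t := Subgroup.mem_centralizer_singleton_iff.1 ht
      have h2 : (t : V ≃ₗ[ZMod q] V) ((b : V ≃ₗ[ZMod q] V) w) =
          (b : V ≃ₗ[ZMod q] V) ((t : V ≃ₗ[ZMod q] V) w) :=
        LinearEquiv.congr_fun (congrArg Subtype.val h1) w
      rw [← h2, hw]
    have hidx : (Subgroup.centralizer ({b} : Set P)).index ≤ 2 := by
      rw [Cfsg.Agent.Blocks.Basic.index_centralizer_eq_ncard]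
      have hsub : {h : P | IsConj b h} ⊆ {b, b * z} := by
        intro h hh
        obtain ⟨g, hg⟩ := isConj_iff.1 hh
        obtain ⟨i, hi⟩ := hconj g
        rw [← hg, hi]
        rcases Nat.even_or_odd' i with ⟨k, rfl | rfl⟩
        · left
          rw [pow_mul, pow_two, hzz, one_pow, mul_one]
        · right
          rw [pow_add, pow_mul, pow_two, hzz, one_pow, one_mul, pow_one]
          rfl
      exact (Set.ncard_le_ncard hsub (Set.toFinite _)).trans (Set.ncard_insert_le _ _ |>.trans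
        (by rw [Set.ncard_singleton]))
    have hne : (Subgroup.centralizer ({b} : Set P)).index ≠ 0 := Subgroup.index_ne_zero_of_finite
    rcases (by omega : (Subgroup.centralizer ({b} : Set P)).index = 1 ∨
      (Subgroup.centralizer ({b} : Set P)).index = 2) with h | h
    · rw [Subgroup.index_eq_one] at h
      refine hirr _ fun t ht w hw => hinv ⟨t, ht⟩ ?_ w hw
      rw [h]; exact Subgroup.mem_top _
    · exact hM _ h _ hinv
  rcases hbfix with h | h
  · apply hbz
    have h1 : b = z := by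
      apply Subtype.ext
      apply LinearEquiv.ext
      intro v
      rw [hzneg]
      have h2 : v + (b : V ≃ₗ[ZMod q] V) v ∈ fix (b : V ≃ₗ[ZMod q] V) := by
        rw [mem_fix, map_add]
        have hbb : b * b = 1 := by rw [← pow_two, hb2]
        have h2 : (b : V ≃ₗ[ZMod q] V) ((b : V ≃ₗ[ZMod q] V) v) = v :=
          LinearEquiv.congr_fun (congrArg Subtype.val hbb) v
        rw [h2, add_comm]
      rw [h] at h2
      exact eq_neg_of_add_eq_zero_right ((Submodule.mem_bot _).1 h2)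
    rw [h1]
    exact Subgroup.mem_zpowers z
  · apply hbz
    have h1 : b = 1 := Subtype.ext (eq_one_of_fix h)
    rw [h1]
    exact one_mem _

/-- The conclusion from the congruence for `q`. -/
theorem card_le_of_dvd [Fact q.Prime] [Finite V] [Nontrivial V] {P : Subgroup (V ≃ₗ[ZMod q] V)}
    {c : P} (hirr : Irr (toEnd P c)) (h : (orderOf c : ℤ) ∣ (q : ℤ) ^ 2 - 1) :
    Nat.card V ≤ q ^ 2 := by
  refine card_le hirr ?_
  rw [← map_pow]
  congr 1
  rw [pow_eq_self_iff]
  exact_mod_cast h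

/-- The cyclic case. -/
theorem card_le_cyclic [Fact q.Prime] (hq2 : q ≠ 2) [Finite V] [Nontrivial V]
    (P : Subgroup (V ≃ₗ[ZMod q] V)) (hP : IsPGroup 2 P)
    (hirr : ∀ W : Submodule (ZMod q) V, (∀ t ∈ P, ∀ w ∈ W, t w ∈ W) → W = ⊥ ∨ W = ⊤)
    (hM : ∀ M : Subgroup P, M.index = 2 → ∀ W : Submodule (ZMod q) V,
      (∀ t ∈ M, ∀ w ∈ W, (t : V ≃ₗ[ZMod q] V) w ∈ W) → W = ⊥ ∨ W = ⊤)
    (hcyc : IsCyclic P) : Nat.card V ≤ q ^ 2 := by
  have hfin : Finite (V ≃ₗ[ZMod q] V) := Finite.of_injective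
    (fun f : V ≃ₗ[ZMod q] V => (f : V → V)) DFunLike.coe_injective
  have hq : q.Prime := Fact.out
  have hodd : Odd (q : ℤ) := by exact_mod_cast hq.odd_of_ne_two hq2
  obtain ⟨g, hg⟩ := hcyc.exists_generator
  have hgcard : orderOf g = Nat.card P := orderOf_eq_card_of_forall_mem_zpowers hg
  obtain ⟨n, hn⟩ := (IsPGroup.iff_card).1 hP
  rcases n with _ | m
  · -- trivial group
    rw [pow_zero] at hn
    have hsub : Subsingleton P := (Nat.card_eq_one_iff_unique.1 hn).1
    have hirr1 : Irr (toEnd P (1 : P)) := by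
      intro W _
      refine hirr W fun t ht w hw => ?_
      have h1 : (⟨t, ht⟩ : P) = 1 := Subsingleton.elim _ _
      have h2 : t = 1 := congrArg Subtype.val h1
      rw [h2]
      exact hw
    refine card_le_of_dvd hirr1 ?_
    rw [orderOf_one]
    exact one_dvd _
  · have hg2 : orderOf (g ^ 2) = 2 ^ m := by
      rw [orderOf_pow_of_dvd two_ne_zero (by rw [hgcard, hn, pow_succ]; exact dvd_mul_left _ _),
        hgcard, hn, pow_succ]
      exact Nat.mul_div_cancel _ (by norm_num)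
    have hidx : (Subgroup.zpowers (g ^ 2)).index = 2 := by
      have h1 := (Subgroup.zpowers (g ^ 2)).card_mul_index
      rw [Nat.card_zpowers, hg2, hn, pow_succ] at h1
      exact Nat.eq_of_mul_eq_mul_left (by positivity) h1
    have hI : Irr (toEnd P (g ^ 2)) := irr_toEnd _ (hM _ hidx)
    refine card_le_of_dvd hI ?_
    rw [hg2]
    push_cast
    refine nt_cyclic hodd fun i hi => ?_
    have h1 : (g ^ 2) ^ q ^ i = g ^ 2 := by
      rw [pow_eq_self_iff, hg2]
      push_cast
      exact hi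
    have h2 : (toEnd P (g ^ 2)) ^ q ^ i = toEnd P (g ^ 2) := by rw [← map_pow, h1]
    have h3 : toEnd P g * toEnd P (g ^ 2) = toEnd P (g ^ 2) * toEnd P g := by
      rw [← map_mul, ← map_mul, ← pow_succ, ← pow_succ']
    have h4 := pow_eq_of_commute hI h2 h3
    rw [← map_pow] at h4
    have h5 := toEnd_injective P h4
    rw [pow_eq_self_iff, hgcard, hn] at h5
    exact_mod_cast h5

/-- If `V` is irreducible for the `2`-group `P` and for all its subgroups of index `2` then
`|V| ≤ q ^ 2`. -/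
theorem card_le_sq [Fact q.Prime] (hq2 : q ≠ 2) [Finite V] [Nontrivial V]
    (P : Subgroup (V ≃ₗ[ZMod q] V)) (hP : IsPGroup 2 P)
    (hirr : ∀ W : Submodule (ZMod q) V, (∀ t ∈ P, ∀ w ∈ W, t w ∈ W) → W = ⊥ ∨ W = ⊤)
    (hM : ∀ M : Subgroup P, M.index = 2 → ∀ W : Submodule (ZMod q) V,
      (∀ t ∈ M, ∀ w ∈ W, (t : V ≃ₗ[ZMod q] V) w ∈ W) → W = ⊥ ∨ W = ⊤) :
    Nat.card V ≤ q ^ 2 := by
  by_cases hcyc : IsCyclic P
  · exact card_le_cyclic hq2 P hP hirr hM hcyc
  have hfin : Finite (V ≃ₗ[ZMod q] V) := Finite.of_injective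
    (fun f : V ≃ₗ[ZMod q] V => (f : V → V)) DFunLike.coe_injective
  have hq : q.Prime := Fact.out
  have hodd : Odd (q : ℤ) := by exact_mod_cast hq.odd_of_ne_two hq2
  have hnorm := cyclic_of_normal P hP hirr hM
  rcases Cfsg.Agent.Classification.NormalCyclic.exists_cyclic_index_two hP hnorm with h | h
  · exact absurd h hcyc
  obtain ⟨A, hAc, hA2⟩ := h
  have hAn : A.Normal := Subgroup.normal_of_index_eq_two hA2
  obtain ⟨⟨c, hcA⟩, hgen⟩ := hAc.exists_generator
  have hAz : A = Subgroup.zpowers c := by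
    apply le_antisymm
    · intro x hx
      obtain ⟨k, hk⟩ := Subgroup.mem_zpowers_iff.1 (hgen ⟨x, hx⟩)
      exact Subgroup.mem_zpowers_iff.2 ⟨k, congrArg Subtype.val hk⟩
    · rw [Subgroup.zpowers_le]; exact hcA
  obtain ⟨g, hgA⟩ : ∃ g : P, g ∉ A := by
    by_contra hcon
    push Not at hcon
    have : A = ⊤ := by rw [eq_top_iff]; exact fun x _ => hcon x
    rw [this, Subgroup.index_top] at hA2
    omega
  have hI : Irr (toEnd P c) := irr_toEnd c (by rw [← hAz]; exact hM A hA2)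
  -- `g` does not commute with `c`
  have hgc : g * c ≠ c * g := by
    intro hgc
    apply hcyc
    have h1 : Subgroup.centralizer ({c} : Set P) = ⊤ := by
      refine top_of_index_two hA2 ?_ hgA (Subgroup.mem_centralizer_singleton_iff.2 hgc)
      rw [hAz, Subgroup.zpowers_le]
      exact Subgroup.mem_centralizer_singleton_iff.2 rfl
    have h2 : ∀ x : P, x * c = c * x := fun x =>
      Subgroup.mem_centralizer_singleton_iff.1 (by rw [h1]; exact Subgroup.mem_top _)
    have hcc : c ∈ Subgroup.center P := Subgroup.mem_center_iff.2 fun x => h2 x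
    have hAcen : A ≤ Subgroup.center P := by rw [hAz, Subgroup.zpowers_le]; exact hcc
    have hgcen : g ∈ Subgroup.center P := by
      have h3 : Subgroup.centralizer ({g} : Set P) = ⊤ := by
        refine top_of_index_two hA2 ?_ hgA (Subgroup.mem_centralizer_singleton_iff.2 rfl)
        intro x hx
        exact Subgroup.mem_centralizer_singleton_iff.2
          ((Subgroup.mem_center_iff.1 (hAcen hx) g).symm)
      exact Subgroup.mem_center_iff.2 fun x =>
        Subgroup.mem_centralizer_singleton_iff.1 (by rw [h3]; exact Subgroup.mem_top _)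
    have h4 : Subgroup.center P = ⊤ := top_of_index_two hA2 hAcen hgA hgcen
    have h5 : IsMulCommutative (⊤ : Subgroup P) := by
      refine isMulCommutative_iff.2 fun x y => Subtype.ext ?_
      have h6 : (y : P) ∈ Subgroup.center P := by rw [h4]; exact Subgroup.mem_top _
      exact Subgroup.mem_center_iff.1 h6 x
    have h7 : IsCyclic (⊤ : Subgroup P) := hnorm ⊤ inferInstance h5
    exact (Subgroup.topEquiv (G := P)).isCyclic.1 h7
  -- conjugation by `g` is a power of the Frobenius map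
  obtain ⟨i, hi⟩ : ∃ i : ℕ, g * c * g⁻¹ = c ^ q ^ i := by
    have h1 : g * c * g⁻¹ ∈ Subgroup.zpowers c := by
      rw [← hAz]; exact hAn.conj_mem c hcA g
    rw [← mem_powers_iff_mem_zpowers] at h1
    obtain ⟨k, hk⟩ := h1
    obtain ⟨i, hi⟩ := conj_frob (g := toEnd P g) (g' := toEnd P g⁻¹) hI
      (by rw [← map_mul, mul_inv_cancel, map_one]) (by rw [← map_mul, inv_mul_cancel, map_one])
      (by
        rw [← map_mul, ← map_mul]
        have hk' : c ^ k = g * c * g⁻¹ := hk
        rw [← hk', map_pow]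
        exact pow_mem (self_mem _) _)
    refine ⟨i, toEnd_injective P ?_⟩
    rw [map_mul, map_mul, hi, map_pow]
  obtain ⟨m, hm⟩ : ∃ m : ℕ, orderOf c = 2 ^ m := (IsPGroup.iff_orderOf.1 hP) c
  have hsq : c ^ (q ^ i * q ^ i) = c := by
    have h1 : g * g ∈ A := by
      rw [Subgroup.mul_mem_iff_of_index_two hA2]
    rw [hAz] at h1
    obtain ⟨k, hk⟩ := Subgroup.mem_zpowers_iff.1 h1
    have h2 : (g * g) * c * (g * g)⁻¹ = c := by
      rw [← hk]
      group
    have h3 : (g * g) * c * (g * g)⁻¹ = (g * c * g⁻¹) ^ q ^ i := by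
      rw [conj_pow, ← hi]
      group
    rw [h2, hi, ← pow_mul] at h3
    exact h3.symm
  have hdvd : (2 : ℤ) ^ m ∣ ((q : ℤ) ^ i) ^ 2 - 1 := by
    rw [pow_eq_self_iff, hm] at hsq
    push_cast at hsq
    rw [pow_two]
    exact hsq
  refine card_le_of_dvd hI ?_
  rw [hm]
  push_cast
  rcases Nat.even_or_odd i with hie | hio
  swap
  · refine nt_odd hodd hio ?_
    rw [mul_comm, pow_mul]
    exact hdvd
  rcases m with _ | m
  · rw [pow_zero]; exact one_dvd _
  exfalso
  have h4 := four_dvd hodd hie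
  obtain ⟨k, hk⟩ := nt_half h4 hdvd
  by_cases hke : Even k
  · apply hgc
    obtain ⟨l, rfl⟩ := hke
    have h5 : c ^ q ^ i = c := by
      rw [pow_eq_self_iff, hm]
      push_cast
      refine ⟨l, ?_⟩
      rw [hk]; ring
    rw [h5, mul_inv_eq_iff_eq_mul] at hi
    exact hi
  · rw [Int.not_even_iff_odd] at hke
    by_cases hm3 : 3 ≤ m + 1
    · obtain ⟨l, hl⟩ := hke
      have h5 : g * c * g⁻¹ = c * c ^ (2 ^ (m + 1 - 1)) := by
        rw [hi]
        have h6 : ((q ^ i : ℕ) : ℤ) = 1 + 2 ^ m + (orderOf c : ℤ) * l := by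
          rw [hm]
          push_cast
          have : (q : ℤ) ^ i = 1 + 2 ^ m * k := by linarith
          rw [this, hl]; ring
        calc c ^ q ^ i = c ^ ((q ^ i : ℕ) : ℤ) := (zpow_natCast _ _).symm
          _ = c ^ (1 + 2 ^ m + (orderOf c : ℤ) * l) := by rw [h6]
          _ = c * c ^ (2 ^ (m + 1 - 1)) := by
            rw [zpow_add, zpow_mul, zpow_natCast, pow_orderOf_eq_one, one_zpow, mul_one, zpow_add,
              zpow_one, Nat.add_sub_cancel]
            congr 1
      have hcen : ∀ x : P, x * c = c * x → x ∈ Subgroup.zpowers c := by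
        intro x hx
        rw [← hAz]
        by_contra hxA
        have h6 : Subgroup.centralizer ({c} : Set P) = ⊤ := by
          refine top_of_index_two hA2 ?_ hxA (Subgroup.mem_centralizer_singleton_iff.2 hx)
          rw [hAz, Subgroup.zpowers_le]
          exact Subgroup.mem_centralizer_singleton_iff.2 rfl
        exact hgc (Subgroup.mem_centralizer_singleton_iff.1 (by rw [h6]; exact Subgroup.mem_top g))
      obtain ⟨W, hWn, hWc, hWnc⟩ :=
        Cfsg.Agent.Classification.NormalCyclic.exists_klein_of_modular (m + 1) hm3 c g hm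
          (by rw [← hAz]; exact hAn) hcen h5
      exact hWnc (hnorm W hWn hWc)
    · apply hgc
      have h5 : c ^ q ^ i = c := by
        rw [pow_eq_self_iff, hm]
        push_cast
        refine dvd_trans ?_ h4
        have : m + 1 = 1 ∨ m + 1 = 2 := by omega
        rcases this with h | h <;> rw [h] <;> norm_num
      rw [h5, mul_inv_eq_iff_eq_mul] at hi
      exact hi

/-! ### The two-dimensional case -/

theorem exists_fixed [Finite V] {r : ℕ} [Fact r.Prime] (hr2 : r ≠ 2)
    (y : V ≃ₗ[ZMod q] V) (hy : y ^ r = 1) (W : Submodule (ZMod q) V)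
    (P : Subgroup (V ≃ₗ[ZMod q] V)) (hP : IsPGroup 2 P)
    (hPW : ∀ t ∈ P, ∀ w ∈ W, t w ∈ W) (hyP : ∀ w ∈ W, ∃ t ∈ P, y w = t w) {w : V} (hw : w ∈ W) :
    ∃ t ∈ P, y (t w) = t w := by
  classical
  have hr : r.Prime := Fact.out
  have hfin : Finite (V ≃ₗ[ZMod q] V) := Finite.of_injective
    (fun f : V ≃ₗ[ZMod q] V => (f : V → V)) DFunLike.coe_injective
  have hO : ∀ u ∈ MulAction.orbit P w, y u ∈ MulAction.orbit P w := by
    rintro _ ⟨s, rfl⟩
    have h1 : (s : V ≃ₗ[ZMod q] V) w ∈ W := hPW s s.2 w hw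
    obtain ⟨t, ht, h2⟩ := hyP _ h1
    refine ⟨⟨t, ht⟩ * s, ?_⟩
    exact h2.symm
  let f : Function.End (MulAction.orbit P w) := fun u => ⟨y u, hO u u.2⟩
  have hf : ∀ (n : ℕ) (u : MulAction.orbit P w),
      (((f ^ n) u : MulAction.orbit P w) : V) = (y ^ n) u := by
    intro n
    induction n with
    | zero => intro u; rfl
    | succ n ih =>
      intro u
      rw [pow_succ]
      change (((f ^ n) (f u) : MulAction.orbit P w) : V) = _
      rw [ih]
      rfl
  have hf1 : f ^ r ^ 1 = 1 := by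
    funext u
    apply Subtype.ext
    rw [hf, pow_one, hy]
    rfl
  have : Fintype (MulAction.orbit P w) := Fintype.ofFinite _
  have hmod := Equiv.Perm.card_fixedPoints_modEq hf1
  by_contra hcon
  push Not at hcon
  have hemp : Fintype.card f.fixedPoints = 0 := by
    rw [Fintype.card_eq_zero_iff]
    refine ⟨?_⟩
    rintro ⟨⟨_, s, rfl⟩, hz⟩
    exact hcon s s.2 (congrArg Subtype.val hz)
  obtain ⟨n, hn⟩ := hP.card_orbit w
  rw [hemp, ← Nat.card_eq_fintype_card, hn] at hmod
  have h6 : r ∣ 2 ^ n := (Nat.modEq_zero_iff_dvd).1 hmod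
  exact hr2 ((Nat.prime_dvd_prime_iff_eq hr Nat.prime_two).1 (hr.dvd_of_dvd_pow h6))

theorem fixed_of_card_le [Fact q.Prime] [Finite V] {r : ℕ} [Fact r.Prime] (hr2 : r ≠ 2)
    (hrq : r ≠ q) (y : V ≃ₗ[ZMod q] V) (hy : y ^ r = 1) (W : Submodule (ZMod q) V)
    (P : Subgroup (V ≃ₗ[ZMod q] V)) (hP : IsPGroup 2 P)
    (hPW : ∀ t ∈ P, ∀ w ∈ W, t w ∈ W) (hyP : ∀ w ∈ W, ∃ t ∈ P, y w = t w)
    (hcard : Nat.card W ≤ q ^ 2) : ∀ w ∈ W, y w = w := by
  classical
  by_contra hcon
  push Not at hcon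
  obtain ⟨w, hw, hyw⟩ := hcon
  have hr : r.Prime := Fact.out
  have hq : q.Prime := Fact.out
  have hfin : Finite (V ≃ₗ[ZMod q] V) := Finite.of_injective
    (fun f : V ≃ₗ[ZMod q] V => (f : V → V)) DFunLike.coe_injective
  have hyW : ∀ w ∈ W, y w ∈ W := by
    intro w hw
    obtain ⟨t, ht, h⟩ := hyP w hw
    rw [h]; exact hPW t ht w hw
  have hynW : ∀ (n : ℕ), ∀ w ∈ W, (y ^ n) w ∈ W := by
    intro n
    induction n with
    | zero => intro w hw; exact hw
    | succ n ih => intro w hw; rw [pow_succ']; exact hyW _ (ih w hw)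
  -- the trace map
  set T : V → V := fun v => ∑ i ∈ Finset.range r, (y ^ i) v with hT
  let D : Submodule (ZMod q) V :=
    { carrier := {v | v ∈ W ∧ T v = 0}
      zero_mem' := ⟨W.zero_mem, by simp [hT]⟩
      add_mem' := by
        rintro a b ⟨ha, ha'⟩ ⟨hb, hb'⟩
        refine ⟨W.add_mem ha hb, ?_⟩
        simp only [hT] at ha' hb' ⊢
        rw [Finset.sum_congr rfl fun i _ => map_add _ a b, Finset.sum_add_distrib, ha', hb',
          add_zero]
      smul_mem' := by
        rintro k a ⟨ha, ha'⟩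
        refine ⟨W.smul_mem k ha, ?_⟩
        simp only [hT] at ha' ⊢
        rw [Finset.sum_congr rfl fun i _ => map_smul _ k a, ← Finset.smul_sum, ha', smul_zero] }
  have hDmem : ∀ v, v ∈ D ↔ v ∈ W ∧ ∑ i ∈ Finset.range r, (y ^ i) v = 0 := fun v => Iff.rfl
  set C : Submodule (ZMod q) V := fix y ⊓ W with hC
  have hCW : C ≤ W := inf_le_right
  have hDW : D ≤ W := fun v hv => hv.1
  have hCD : C ⊓ D = ⊥ := by
    rw [eq_bot_iff]
    rintro v ⟨⟨hv1, hv2⟩, hv3⟩
    rw [Submodule.mem_bot]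
    have hyi : ∀ i : ℕ, (y ^ i) v = v := by
      intro i
      induction i with
      | zero => rfl
      | succ n ih =>
        rw [pow_succ']
        change y ((y ^ n) v) = v
        rw [ih]; exact hv1
    have h1 := ((hDmem v).1 hv3).2
    rw [Finset.sum_congr rfl fun i _ => hyi i, Finset.sum_const, Finset.card_range] at h1
    have h2 : ((r : ZMod q)) • v = 0 := by rw [Nat.cast_smul_eq_nsmul]; exact h1
    have h3 : (r : ZMod q) ≠ 0 := by
      intro h
      rw [ZMod.natCast_eq_zero_iff] at h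
      exact hrq ((Nat.prime_dvd_prime_iff_eq hq hr).1 h).symm
    exact (smul_eq_zero.1 h2).resolve_left h3
  -- `d = y w - w`
  set d : V := y w - w with hd
  have hd0 : d ≠ 0 := by rw [hd]; exact sub_ne_zero.2 hyw
  have hdD : d ∈ D := by
    rw [hDmem]
    refine ⟨W.sub_mem (hyW w hw) hw, ?_⟩
    have h1 : ∀ n : ℕ, ∑ i ∈ Finset.range n, (y ^ i) d = (y ^ n) w - w := by
      intro n
      induction n with
      | zero => simp
      | succ n ih =>
        rw [Finset.sum_range_succ, ih, hd, map_sub]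
        have h2 : (y ^ n) (y w) = (y ^ (n + 1)) w := by rw [pow_succ]; rfl
        rw [h2]
        abel
    rw [h1, hy]
    exact sub_self _
  -- a nonzero fixed vector
  have hw0 : w ≠ 0 := by
    rintro rfl
    exact hyw (map_zero _)
  obtain ⟨t, ht, hyt⟩ := exists_fixed hr2 y hy W P hP hPW hyP hw
  have htC : t w ∈ C := ⟨hyt, hPW t ht w hw⟩
  have htw0 : t w ≠ 0 := fun h => hw0 ((LinearEquiv.map_eq_zero_iff t).1 h)
  -- dimensions
  have hWfr : Module.finrank (ZMod q) W ≤ 2 := by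
    let _ : Fintype W := Fintype.ofFinite W
    have h1 := Module.card_eq_pow_finrank (K := ZMod q) (V := W)
    rw [ZMod.card, ← Nat.card_eq_fintype_card] at h1
    rw [h1] at hcard
    exact (Nat.pow_le_pow_iff_right hq.one_lt).1 hcard
  have hCfr : 1 ≤ Module.finrank (ZMod q) C := by
    rw [Nat.one_le_iff_ne_zero, Ne, Submodule.finrank_eq_zero]
    intro h
    rw [h] at htC
    exact htw0 ((Submodule.mem_bot _).1 htC)
  have hsum := Submodule.finrank_sup_add_finrank_inf_eq C D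
  rw [hCD, finrank_bot, add_zero] at hsum
  have hsup : Module.finrank (ZMod q) (C ⊔ D : Submodule (ZMod q) V) ≤ 2 :=
    (Submodule.finrank_mono (sup_le hCW hDW)).trans hWfr
  have hDfr : Module.finrank (ZMod q) D = 1 := by
    have h1 : 1 ≤ Module.finrank (ZMod q) D := by
      rw [Nat.one_le_iff_ne_zero, Ne, Submodule.finrank_eq_zero]
      intro h
      rw [h] at hdD
      exact hd0 ((Submodule.mem_bot _).1 hdD)
    omega
  have hydD : y d ∈ D := by
    rw [hDmem]
    refine ⟨hyW d (hDW hdD), ?_⟩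
    have h1 : ∀ i ∈ Finset.range r, (y ^ i) (y d) = y ((y ^ i) d) := by
      intro i _
      have : y ^ i * y = y * y ^ i := by rw [← pow_succ, ← pow_succ']
      exact LinearEquiv.congr_fun this d
    rw [Finset.sum_congr rfl h1, ← map_sum, ((hDmem d).1 hdD).2, map_zero]
  obtain ⟨k, hk⟩ := (finrank_eq_one_iff_of_nonzero' (⟨d, hdD⟩ : D)
    (fun h => hd0 (congrArg Subtype.val h))).1 hDfr ⟨y d, hydD⟩
  have hk' : k • d = y d := congrArg Subtype.val hk
  obtain ⟨s, hs, hys⟩ := hyP d (hDW hdD)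
  -- powers
  have hpow : ∀ (x : V ≃ₗ[ZMod q] V), x d = k • d → ∀ n : ℕ, (x ^ n) d = k ^ n • d := by
    intro x hx n
    induction n with
    | zero => simp
    | succ n ih =>
      rw [pow_succ]
      change (x ^ n) (x d) = _
      rw [hx, map_smul, ih, smul_smul, pow_succ, mul_comm]
  have hkr : k ^ r = 1 := by
    have h1 := hpow y hk'.symm r
    rw [hy] at h1
    have h2 : (k ^ r - 1) • d = 0 := by
      rw [sub_smul, one_smul, ← h1]
      exact sub_self _
    exact sub_eq_zero.1 ((smul_eq_zero.1 h2).resolve_right hd0)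
  obtain ⟨n, hn⟩ := (IsPGroup.iff_orderOf.1 hP) ⟨s, hs⟩
  have hk2 : k ^ 2 ^ n = 1 := by
    have h1 := hpow s (by rw [← hys, hk']) (2 ^ n)
    have h3 : s ^ 2 ^ n = 1 := by
      rw [← hn, Subgroup.orderOf_mk, pow_orderOf_eq_one]
    rw [h3] at h1
    have h2 : (k ^ 2 ^ n - 1) • d = 0 := by
      rw [sub_smul, one_smul, ← h1]
      exact sub_self _
    exact sub_eq_zero.1 ((smul_eq_zero.1 h2).resolve_right hd0)
  have hk1 : k = 1 := by
    have h1 : orderOf k ∣ r := orderOf_dvd_of_pow_eq_one hkr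
    have h2 : orderOf k ∣ 2 ^ n := orderOf_dvd_of_pow_eq_one hk2
    have h3 : Nat.Coprime r (2 ^ n) :=
      Nat.Coprime.pow_right _ ((Nat.coprime_primes hr Nat.prime_two).2 hr2)
    exact orderOf_eq_one_iff.1 (Nat.eq_one_of_dvd_coprimes h3 h1 h2)
  rw [hk1, one_smul] at hk'
  have hdC : d ∈ C ⊓ D := ⟨⟨hk'.symm, hDW hdD⟩, hdD⟩
  rw [hCD] at hdC
  exact hd0 ((Submodule.mem_bot _).1 hdC)

/-! ### The general case -/

/-- Restriction to an invariant submodule. -/
def res (P : Subgroup (V ≃ₗ[ZMod q] V)) (W : Submodule (ZMod q) V)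
    (hW : ∀ t ∈ P, ∀ w ∈ W, t w ∈ W) : P →* (W ≃ₗ[ZMod q] W) where
  toFun t :=
    { toFun := fun w => ⟨(t : V ≃ₗ[ZMod q] V) w, hW t t.2 w w.2⟩
      map_add' := fun a b => Subtype.ext (map_add _ _ _)
      map_smul' := fun a b => Subtype.ext (map_smul _ _ _)
      invFun := fun w => ⟨((t⁻¹ : P) : V ≃ₗ[ZMod q] V) w, hW _ (t⁻¹).2 w w.2⟩
      left_inv := fun w => Subtype.ext (by
        have h : ((t⁻¹ * t : P) : V ≃ₗ[ZMod q] V) w = w := by rw [inv_mul_cancel]; rfl
        exact h)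
      right_inv := fun w => Subtype.ext (by
        have h : ((t * t⁻¹ : P) : V ≃ₗ[ZMod q] V) w = w := by rw [mul_inv_cancel]; rfl
        exact h) }
  map_one' := by
    apply LinearEquiv.ext
    intro w
    rfl
  map_mul' s t := by
    apply LinearEquiv.ext
    intro w
    rfl

theorem res_apply (P : Subgroup (V ≃ₗ[ZMod q] V)) (W : Submodule (ZMod q) V)
    (hW : ∀ t ∈ P, ∀ w ∈ W, t w ∈ W) (t : P) (w : W) :
    ((res P W hW t w : W) : V) = (t : V ≃ₗ[ZMod q] V) w := rfl

/-- An invariant submodule of a submodule. -/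
theorem map_subtype_cases {W : Submodule (ZMod q) V} {W' : Submodule (ZMod q) W}
    (h : W'.map W.subtype = ⊥ ∨ W'.map W.subtype = W) : W' = ⊥ ∨ W' = ⊤ := by
  rcases h with h | h
  · left
    exact Submodule.map_injective_of_injective (Submodule.injective_subtype W)
      (h.trans (Submodule.map_bot _).symm)
  · right
    rw [eq_top_iff]
    intro w _
    have h1 : (w : V) ∈ W'.map W.subtype := by rw [h]; exact w.2
    obtain ⟨w', hw', e⟩ := h1
    have : w' = w := Subtype.ext e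
    rwa [← this]

/-- A submodule in the union of two submodules lies in one of them. -/
theorem le_or_le {U A B : Submodule (ZMod q) V} (h : ∀ u ∈ U, u ∈ A ∨ u ∈ B) : U ≤ A ∨ U ≤ B := by
  by_contra hcon
  push Not at hcon
  obtain ⟨a, haU, haA⟩ := Set.not_subset.1 hcon.1
  obtain ⟨b, hbU, hbB⟩ := Set.not_subset.1 hcon.2
  have haB : a ∈ B := (h a haU).resolve_left haA
  have hbA : b ∈ A := (h b hbU).resolve_right hbB
  rcases h (a + b) (U.add_mem haU hbU) with h1 | h1
  · exact haA ((Submodule.add_mem_iff_left A hbA).1 h1)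
  · exact hbB ((Submodule.add_mem_iff_right B haB).1 h1)

theorem fixed_aux [Fact q.Prime] (hq2 : q ≠ 2) [Finite V] {r : ℕ} [Fact r.Prime] (hr2 : r ≠ 2)
    (hrq : r ≠ q) (y : V ≃ₗ[ZMod q] V) (hy : y ^ r = 1) (n : ℕ) :
    ∀ (W : Submodule (ZMod q) V) (P : Subgroup (V ≃ₗ[ZMod q] V)),
      Module.finrank (ZMod q) W < n → IsPGroup 2 P → (∀ t ∈ P, ∀ w ∈ W, t w ∈ W) →
      (∀ w ∈ W, ∃ t ∈ P, y w = t w) → ∀ w ∈ W, y w = w := by
  have hfin : Finite (V ≃ₗ[ZMod q] V) := Finite.of_injective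
    (fun f : V ≃ₗ[ZMod q] V => (f : V → V)) DFunLike.coe_injective
  induction n with
  | zero => intro W P h; omega
  | succ n ih =>
    intro W P hn hP hPW hyP
    have hlt : ∀ W₁ : Submodule (ZMod q) V, W₁ ≤ W → W₁ ≠ W → Module.finrank (ZMod q) W₁ < n :=
      fun W₁ h1 h2 => by
        have := Submodule.finrank_lt_finrank_of_lt (lt_of_le_of_ne h1 h2)
        omega
    by_cases hA : ∃ W₁ : Submodule (ZMod q) V, W₁ ≤ W ∧ W₁ ≠ ⊥ ∧ W₁ ≠ W ∧
        ∀ t ∈ P, ∀ w ∈ W₁, t w ∈ W₁
    · -- `P` is reducible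
      obtain ⟨W₁, hle, hbot, hne, hinv⟩ := hA
      have hcard : (Nat.card P : ZMod q) ≠ 0 := by
        obtain ⟨k, hk⟩ := (IsPGroup.iff_card).1 hP
        rw [hk, Ne, ZMod.natCast_eq_zero_iff]
        intro hd
        exact hq2 ((Nat.prime_dvd_prime_iff_eq Fact.out Nat.prime_two).1
          ((Fact.out : q.Prime).dvd_of_dvd_pow hd))
      obtain ⟨W', hW'inv, hcompl⟩ := Cfsg.Agent.GpLn.Rank.exists_compl (toEnd P) hcard W₁
        (fun t w hw => hinv t t.2 w hw)
      have h1 : ∀ w ∈ W₁, y w = w := ih W₁ P (hlt W₁ hle hne) hP hinv fun w hw => hyP w (hle hw)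
      have hW2inv : ∀ t ∈ P, ∀ w ∈ W' ⊓ W, t w ∈ W' ⊓ W := fun t ht w hw =>
        ⟨hW'inv ⟨t, ht⟩ w hw.1, hPW t ht w hw.2⟩
      have hW2ne : W' ⊓ W ≠ W := by
        intro h
        apply hbot
        rw [eq_bot_iff, ← hcompl.inf_eq_bot]
        exact le_inf le_rfl (hle.trans (h ▸ inf_le_left))
      have h2 : ∀ w ∈ W' ⊓ W, y w = w := ih _ P (hlt _ inf_le_right hW2ne) hP hW2inv
        fun w hw => hyP w hw.2
      intro w hw
      have h3 : w ∈ W₁ ⊔ W' := by rw [hcompl.sup_eq_top]; exact Submodule.mem_top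
      obtain ⟨a, ha, b, hb, rfl⟩ := Submodule.mem_sup.1 h3
      have hbW : b ∈ W := (Submodule.add_mem_iff_right W (hle ha)).1 hw
      rw [map_add, h1 a ha, h2 b ⟨hb, hbW⟩]
    by_cases hB : ∃ M : Subgroup P, M.index = 2 ∧ ∃ U : Submodule (ZMod q) V, U ≤ W ∧ U ≠ ⊥ ∧
        U ≠ W ∧ ∀ t ∈ M, ∀ w ∈ U, (t : V ≃ₗ[ZMod q] V) w ∈ U
    · -- a subgroup of index `2` is reducible
      obtain ⟨M, hM2, U, hUW, hUbot, hUne, hUinv⟩ := hB
      have hirr : ∀ W₁ : Submodule (ZMod q) V, W₁ ≤ W → (∀ t ∈ P, ∀ w ∈ W₁, t w ∈ W₁) →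
          W₁ = ⊥ ∨ W₁ = W := by
        intro W₁ h1 h2
        by_contra hcon
        push Not at hcon
        exact hA ⟨W₁, h1, hcon.1, hcon.2, h2⟩
      obtain ⟨g, hg⟩ : ∃ g : P, g ∉ M := by
        by_contra hcon
        push Not at hcon
        have : M = ⊤ := by rw [eq_top_iff]; exact fun x _ => hcon x
        rw [this, Subgroup.index_top] at hM2
        omega
      set U' : Submodule (ZMod q) V := U.map ((g : V ≃ₗ[ZMod q] V) : V →ₗ[ZMod q] V) with hU'
      have hmulM : ∀ {a b : P}, a * b ∈ M ↔ (a ∈ M ↔ b ∈ M) :=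
        Subgroup.mul_mem_iff_of_index_two hM2
      -- outside `M`: `U → U'`, `U' → U`
      have hout : ∀ t : P, t ∉ M → ∀ w ∈ U, (t : V ≃ₗ[ZMod q] V) w ∈ U' := by
        intro t ht w hw
        have h1 : g⁻¹ * t ∈ M := by
          rw [hmulM, inv_mem_iff]
          exact ⟨fun h => absurd h hg, fun h => absurd h ht⟩
        refine ⟨((g⁻¹ * t : P) : V ≃ₗ[ZMod q] V) w, hUinv _ h1 w hw, ?_⟩
        have h2 : g * (g⁻¹ * t) = t := by group
        exact LinearEquiv.congr_fun (congrArg Subtype.val h2) w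
      have hout' : ∀ t : P, t ∉ M → ∀ w ∈ U', (t : V ≃ₗ[ZMod q] V) w ∈ U := by
        rintro t ht _ ⟨u, hu, rfl⟩
        have h1 : t * g ∈ M := by
          rw [hmulM]
          exact ⟨fun h => absurd h ht, fun h => absurd h hg⟩
        exact hUinv _ h1 u hu
      have hin' : ∀ t ∈ M, ∀ w ∈ U', (t : V ≃ₗ[ZMod q] V) w ∈ U' := by
        rintro t ht _ ⟨u, hu, rfl⟩
        have h1 : t * g ∉ M := by
          rw [hmulM]
          exact fun h => hg (h.1 ht)
        exact hout (t * g) h1 u hu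
      have hU'W : U' ≤ W := by
        rintro _ ⟨u, hu, rfl⟩
        exact hPW g g.2 u (hUW hu)
      have hinf : U ⊓ U' = ⊥ := by
        rcases hirr (U ⊓ U') (inf_le_left.trans hUW) (by
          rintro t ht w ⟨hw, hw'⟩
          by_cases htM : (⟨t, ht⟩ : P) ∈ M
          · exact ⟨hUinv _ htM w hw, hin' _ htM w hw'⟩
          · exact ⟨hout' _ htM w hw', hout _ htM w hw⟩) with h | h
        · exact h
        · exact absurd (le_antisymm hUW (h ▸ inf_le_left)) hUne
      have hsup : U ⊔ U' = W := by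
        rcases hirr (U ⊔ U') (sup_le hUW hU'W) (by
          intro t ht w hw
          obtain ⟨a, ha, b, hb, rfl⟩ := Submodule.mem_sup.1 hw
          rw [map_add]
          by_cases htM : (⟨t, ht⟩ : P) ∈ M
          · exact Submodule.add_mem_sup (hUinv _ htM a ha) (hin' _ htM b hb)
          · rw [add_comm]
            exact Submodule.add_mem_sup (hout' _ htM b hb) (hout _ htM a ha)) with h | h
        · exact absurd (eq_bot_iff.2 (h ▸ le_sup_left)) hUbot
        · exact h
      have hU'bot : U' ≠ ⊥ := by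
        intro h
        apply hUbot
        rw [eq_bot_iff]
        intro u hu
        have h1 : (g : V ≃ₗ[ZMod q] V) u ∈ U' := ⟨u, hu, rfl⟩
        rw [h, Submodule.mem_bot] at h1
        exact (Submodule.mem_bot _).2 ((LinearEquiv.map_eq_zero_iff _).1 h1)
      have hU'ne : U' ≠ W := by
        intro h
        apply hUbot
        rw [← hinf, h, inf_eq_left.2 hUW]
      -- `y` on `U` and `U'`
      have hyU : ∀ w, w ∈ U → y w ∈ U ∨ y w ∈ U' := by
        intro w hw
        obtain ⟨t, ht, h⟩ := hyP w (hUW hw)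
        rw [h]
        by_cases htM : (⟨t, ht⟩ : P) ∈ M
        · exact Or.inl (hUinv _ htM w hw)
        · exact Or.inr (hout _ htM w hw)
      have hyU' : ∀ w, w ∈ U' → y w ∈ U ∨ y w ∈ U' := by
        intro w hw
        obtain ⟨t, ht, h⟩ := hyP w (hU'W hw)
        rw [h]
        by_cases htM : (⟨t, ht⟩ : P) ∈ M
        · exact Or.inr (hin' _ htM w hw)
        · exact Or.inl (hout' _ htM w hw)
      have hcase : (∀ w ∈ U, y w ∈ U) ∨ ∀ w ∈ U, y w ∈ U' := by
        rcases le_or_le (U := U.map (y : V →ₗ[ZMod q] V)) (A := U) (B := U')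
          (by rintro _ ⟨w, hw, rfl⟩; exact hyU w hw) with h | h
        · left; exact fun w hw => h ⟨w, hw, rfl⟩
        · right; exact fun w hw => h ⟨w, hw, rfl⟩
      have hcase' : (∀ w ∈ U', y w ∈ U) ∨ ∀ w ∈ U', y w ∈ U' := by
        rcases le_or_le (U := U'.map (y : V →ₗ[ZMod q] V)) (A := U) (B := U')
          (by rintro _ ⟨w, hw, rfl⟩; exact hyU' w hw) with h | h
        · left; exact fun w hw => h ⟨w, hw, rfl⟩
        · right; exact fun w hw => h ⟨w, hw, rfl⟩
      -- `y` does not map both into the same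
      have hsame : ∀ X : Submodule (ZMod q) V, X ≤ W → X ≠ W → (∀ w ∈ U, y w ∈ X) →
          (∀ w ∈ U', y w ∈ X) → False := by
        intro X hXW hXne h1 h2
        have h3 : W.map (y : V →ₗ[ZMod q] V) ≤ X := by
          rintro _ ⟨w, hw, rfl⟩
          have hw' : w ∈ U ⊔ U' := by rw [hsup]; exact hw
          obtain ⟨a, ha, b, hb, rfl⟩ := Submodule.mem_sup.1 hw'
          have h4 : (y : V →ₗ[ZMod q] V) (a + b) = y a + y b := map_add _ _ _
          rw [h4]
          exact X.add_mem (h1 a ha) (h2 b hb)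
        have h5 := Submodule.finrank_mono h3
        have h6 : Module.finrank (ZMod q) (W.map (y : V →ₗ[ZMod q] V)) =
            Module.finrank (ZMod q) W := LinearEquiv.finrank_map_eq y W
        rw [h6] at h5
        exact absurd (Submodule.finrank_lt_finrank_of_lt (lt_of_le_of_ne hXW hXne)) (by omega)
      have hyUU : ∀ w ∈ U, y w ∈ U := by
        rcases hcase with h | h
        · exact h
        exfalso
        have h' : ∀ w ∈ U', y w ∈ U := by
          rcases hcase' with h1 | h1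
          · exact h1
          · exact absurd (hsame U' hU'W hU'ne h h1) id
        -- `y²` preserves `U`, hence so does `y`
        have hy2 : ∀ k : ℕ, ∀ w ∈ U, (y ^ (2 * k)) w ∈ U := by
          intro k
          induction k with
          | zero => intro w hw; exact hw
          | succ k ihk =>
            intro w hw
            have h1 : y ^ (2 * (k + 1)) = y * y * y ^ (2 * k) := by
              rw [← pow_two, ← pow_add]; congr 1; ring
            rw [h1]
            exact h' _ (h _ (ihk w hw))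
        obtain ⟨l, hl⟩ := (Fact.out : r.Prime).odd_of_ne_two hr2
        have hy1 : y ^ (2 * (l + 1)) = y := by
          have : 2 * (l + 1) = r + 1 := by omega
          rw [this, pow_succ, hy, one_mul]
        apply hUbot
        rw [eq_bot_iff]
        intro w hw
        have h2 : y w ∈ U := by
          have := hy2 (l + 1) w hw
          rwa [hy1] at this
        have h3 : y w ∈ U ⊓ U' := ⟨h2, h w hw⟩
        rw [hinf, Submodule.mem_bot] at h3
        exact (Submodule.mem_bot _).2 ((LinearEquiv.map_eq_zero_iff _).1 h3)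
      have hyUU' : ∀ w ∈ U', y w ∈ U' := by
        rcases hcase' with h | h
        · exact absurd (hsame U hUW hUne hyUU h) id
        · exact h
      have hMP : IsPGroup 2 (M.map P.subtype) := (hP.to_subgroup M).map _
      have hfixU : ∀ w ∈ U, y w = w := by
        refine ih U (M.map P.subtype) (hlt U hUW hUne) hMP ?_ ?_
        · rintro _ ⟨t, ht, rfl⟩ w hw
          exact hUinv t ht w hw
        · intro w hw
          obtain ⟨t, ht, h⟩ := hyP w (hUW hw)
          by_cases htM : (⟨t, ht⟩ : P) ∈ M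
          · exact ⟨t, ⟨⟨t, ht⟩, htM, rfl⟩, h⟩
          · have h1 : t w ∈ U' := hout _ htM w hw
            have h2 : t w ∈ U := h ▸ hyUU w hw
            have h3 : t w ∈ U ⊓ U' := ⟨h2, h1⟩
            rw [hinf, Submodule.mem_bot] at h3
            have hw0 : w = 0 := (LinearEquiv.map_eq_zero_iff t).1 h3
            exact ⟨1, one_mem _, by rw [hw0, map_zero, map_zero]⟩
      have hfixU' : ∀ w ∈ U', y w = w := by
        refine ih U' (M.map P.subtype) (hlt U' hU'W hU'ne) hMP ?_ ?_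
        · rintro _ ⟨t, ht, rfl⟩ w hw
          exact hin' t ht w hw
        · intro w hw
          obtain ⟨t, ht, h⟩ := hyP w (hU'W hw)
          by_cases htM : (⟨t, ht⟩ : P) ∈ M
          · exact ⟨t, ⟨⟨t, ht⟩, htM, rfl⟩, h⟩
          · have h1 : t w ∈ U := hout' _ htM w hw
            have h2 : t w ∈ U' := h ▸ hyUU' w hw
            have h3 : t w ∈ U ⊓ U' := ⟨h1, h2⟩
            rw [hinf, Submodule.mem_bot] at h3
            have hw0 : w = 0 := (LinearEquiv.map_eq_zero_iff t).1 h3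
            exact ⟨1, one_mem _, by rw [hw0, map_zero, map_zero]⟩
      intro w hw
      rw [← hsup] at hw
      obtain ⟨a, ha, b, hb, rfl⟩ := Submodule.mem_sup.1 hw
      rw [map_add, hfixU a ha, hfixU' b hb]
    · -- everything irreducible
      by_cases hWbot : W = ⊥
      · intro w hw
        rw [hWbot, Submodule.mem_bot] at hw
        rw [hw, map_zero]
      have hnt : Nontrivial W := Submodule.nontrivial_iff_ne_bot.2 hWbot
      refine fixed_of_card_le hr2 hrq y hy W P hP hPW hyP ?_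
      have hle : ∀ W' : Submodule (ZMod q) W, W'.map W.subtype ≤ W := fun W' =>
        Submodule.map_subtype_le W W'
      refine card_le_sq hq2 (res P W hPW).range (hP.of_surjective _
        (MonoidHom.rangeRestrict_surjective _)) ?_ ?_
      · intro W' hW'
        apply map_subtype_cases
        by_contra hcon
        push Not at hcon
        refine hA ⟨_, hle W', hcon.1, hcon.2, ?_⟩
        rintro t ht _ ⟨w, hw, rfl⟩
        exact ⟨_, hW' (res P W hPW ⟨t, ht⟩) ⟨_, rfl⟩ w hw, rfl⟩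
      · intro M hM W' hW'
        apply map_subtype_cases
        by_contra hcon
        push Not at hcon
        refine hB ⟨M.comap (res P W hPW).rangeRestrict, ?_, _, hle W', hcon.1, hcon.2, ?_⟩
        · rw [Subgroup.index_comap_of_surjective _ (MonoidHom.rangeRestrict_surjective _), hM]
        · rintro t ht _ ⟨w, hw, rfl⟩
          exact ⟨_, hW' _ ht w hw, rfl⟩

/-- **Main theorem.** Let `q` be an odd prime, `P` a `2`-subgroup of `GL(V)`, `V` a finite
`ZMod q`-module, and `y ∈ GL(V)` of odd prime order `r ≠ q` mapping every `P`-orbit to itself.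
Then `y = 1`. -/
theorem fixed_of_orbits [Fact q.Prime] (hq2 : q ≠ 2) [Finite V] {r : ℕ} [Fact r.Prime]
    (hr2 : r ≠ 2) (hrq : r ≠ q) (y : V ≃ₗ[ZMod q] V) (hy : y ^ r = 1)
    (P : Subgroup (V ≃ₗ[ZMod q] V)) (hP : IsPGroup 2 P)
    (hyP : ∀ v : V, ∃ t ∈ P, y v = t v) : y = 1 := by
  apply LinearEquiv.ext
  intro v
  exact fixed_aux hq2 hr2 hrq y hy _ ⊤ P (Nat.lt_succ_self _) hP
    (fun _ _ _ _ => Submodule.mem_top) (fun w _ => hyP w) v Submodule.mem_top

end Cfsg.Agent.H541.TwoPowerOrbits
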