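import Cfsg.Agent.H541.TwoPowerOrbits
import Cfsg.Agent.S0543

/-!
# Coprime actions with all orbits of `p`-power size

`H` acts faithfully on a finite abelian `q`-group `V`, `q ∤ |H|`, all orbits of `H` on `V` have
`p`-power size.

* `isPGroup_two`: if `p = 2` then `H` is a `2`-group;
* `odd_card`: if `p ≠ 2` then `|H|` is odd.
-/

set_option autoImplicit false

namespace Cfsg.Agent.H541.TwoPowerSolv

variable {H V : Type*} [Group H] [CommGroup V] [MulDistribMulAction H V]

/-- The elements of order dividing `q`. -/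
def Om (q : ℕ) (V : Type*) [CommGroup V] : Subgroup V where
  carrier := {v | v ^ q = 1}
  one_mem' := one_pow _
  mul_mem' := by
    intro a b ha hb
    have ha' : a ^ q = 1 := ha
    have hb' : b ^ q = 1 := hb
    change (a * b) ^ q = 1
    rw [mul_pow, ha', hb', one_mul]
  inv_mem' := by
    intro a ha
    have ha' : a ^ q = 1 := ha
    change (a⁻¹) ^ q = 1
    rw [inv_pow, ha', inv_one]

theorem mem_Om {q : ℕ} {v : V} : v ∈ Om q V ↔ v ^ q = 1 := Iff.rfl

theorem smul_mem_Om {q : ℕ} (h : H) {v : V} (hv : v ∈ Om q V) : h • v ∈ Om q V := by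
  rw [mem_Om] at hv ⊢
  rw [← smul_pow', hv, smul_one]

/-- The module structure on `Ω₁`. -/
instance modOm (q : ℕ) (V : Type*) [CommGroup V] : Module (ZMod q) (Additive (Om q V)) :=
  AddCommGroup.zmodModule (n := q) (fun x => by
    have h : (x.toMul) ^ q = 1 := Subtype.ext (mem_Om.1 (x.toMul).2)
    exact h)

/-- The representation on `Ω₁`. -/
def rho (q : ℕ) (H V : Type*) [Group H] [CommGroup V] [MulDistribMulAction H V] :
    H →* (Additive (Om q V) ≃ₗ[ZMod q] Additive (Om q V)) :=
  { toFun := fun h =>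
      { toFun := fun v => Additive.ofMul ⟨h • ((v.toMul : Om q V) : V), smul_mem_Om h (v.toMul).2⟩
        map_add' := fun a b => congrArg Additive.ofMul (Subtype.ext (smul_mul' h _ _))
        map_smul' := by
          intro c x
          let f : Additive (Om q V) →+ Additive (Om q V) :=
            { toFun := fun v =>
                Additive.ofMul ⟨h • ((v.toMul : Om q V) : V), smul_mem_Om h (v.toMul).2⟩
              map_zero' := congrArg Additive.ofMul (Subtype.ext (smul_one h))
              map_add' := fun a b => congrArg Additive.ofMul (Subtype.ext (smul_mul' h _ _)) }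
          exact ZMod.map_smul f c x
        invFun := fun v =>
          Additive.ofMul ⟨h⁻¹ • ((v.toMul : Om q V) : V), smul_mem_Om h⁻¹ (v.toMul).2⟩
        left_inv := fun v => congrArg Additive.ofMul (Subtype.ext (inv_smul_smul h _))
        right_inv := fun v => congrArg Additive.ofMul (Subtype.ext (smul_inv_smul h _)) }
    map_one' := by
      apply LinearEquiv.ext
      intro v
      exact congrArg Additive.ofMul (Subtype.ext (one_smul H _))
    map_mul' := by
      intro a b
      apply LinearEquiv.ext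
      intro v
      exact congrArg Additive.ofMul (Subtype.ext (mul_smul a b _)) }

/-- A `q'`-automorphism of prime order of an abelian `q`-group which is trivial on `Ω₁` is
trivial. -/
theorem smul_eq_of_Om {q r : ℕ} (hqr : Nat.Coprime r q) {y : H} (hy : y ^ r = 1)
    (hO : ∀ v ∈ Om q V, y • v = v) (n : ℕ) : ∀ v : V, v ^ q ^ n = 1 → y • v = v := by
  induction n with
  | zero =>
    intro v hv
    rw [pow_zero, pow_one] at hv
    rw [hv, smul_one]
  | succ n ih =>
    intro v hv
    have h1 : y • (v ^ q) = v ^ q := ih (v ^ q) (by rw [← pow_mul, ← pow_succ']; exact hv)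
    obtain ⟨u, hu⟩ : ∃ u : V, u = (y • v) * v⁻¹ := ⟨_, rfl⟩
    have hyv : y • v = u * v := by rw [hu, inv_mul_cancel_right]
    have hu1 : u ^ q = 1 := by
      rw [hu, mul_pow, ← smul_pow', h1, inv_pow, mul_inv_cancel]
    have hyu : y • u = u := hO u hu1
    have hk : ∀ k : ℕ, y ^ k • v = u ^ k * v := by
      intro k
      induction k with
      | zero => simp
      | succ k ihk =>
        rw [pow_succ', mul_smul, ihk, smul_mul', smul_pow', hyu, hyv, pow_succ, mul_assoc]
    have h2 := hk r
    rw [hy, one_smul] at h2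
    have hur : u ^ r = 1 := by
      have h3 : u ^ r * v = 1 * v := by rw [one_mul]; exact h2.symm
      exact mul_right_cancel h3
    have h4 : orderOf u = 1 := Nat.eq_one_of_dvd_coprimes hqr (orderOf_dvd_of_pow_eq_one hur)
      (orderOf_dvd_of_pow_eq_one hu1)
    rw [hyv, orderOf_eq_one_iff.1 h4, one_mul]

/-- Orbits of `H` and of a Sylow `p`-subgroup agree. -/
theorem exists_smul_eq [Finite H] {p : ℕ} [Fact p.Prime] (P : Sylow p H) {v : V} {a : ℕ}
    (h : (MulAction.stabilizer H v).index = p ^ a) (g : H) :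
    ∃ t ∈ (P : Subgroup H), g • v = t • v := by
  have hcop : (P : Subgroup H).index.Coprime (MulAction.stabilizer H v).index := by
    rw [h]
    exact Nat.Coprime.pow_right _
      (((Fact.out : p.Prime).coprime_iff_not_dvd).2 P.not_dvd_index).symm
  obtain ⟨t, ht, s, hs, rfl⟩ :=
    Cfsg.Agent.S0543.exists_mul_eq_of_coprime_index (P : Subgroup H) _ hcop g
  refine ⟨t, ht, ?_⟩
  rw [mul_smul, MulAction.mem_stabilizer_iff.1 hs]

/-- If all orbits have `2`-power size then `H` is a `2`-group. -/
theorem isPGroup_two [Finite H] [Finite V] [FaithfulSMul H V] {q : ℕ} [Fact q.Prime]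
    (hq2 : q ≠ 2) (hV : IsPGroup q V) (hcop : ¬ q ∣ Nat.card H)
    (h : ∀ v : V, ∃ a : ℕ, (MulAction.stabilizer H v).index = 2 ^ a) : IsPGroup 2 H := by
  have hone : ∀ r : ℕ, r.Prime → r ∣ Nat.card H → r = 2 := by
    intro r hr hrd
    by_contra hr2
    have hr' : Fact r.Prime := ⟨hr⟩
    have hrq : r ≠ q := by rintro rfl; exact hcop hrd
    obtain ⟨y, hy⟩ := exists_prime_orderOf_dvd_card' r hrd
    have hyr : y ^ r = 1 := by rw [← hy, pow_orderOf_eq_one]
    have h2 : Fact (Nat.Prime 2) := ⟨Nat.prime_two⟩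
    obtain ⟨P⟩ : Nonempty (Sylow 2 H) := inferInstance
    have h1 : rho q H V y = 1 := by
      refine Cfsg.Agent.H541.TwoPowerOrbits.fixed_of_orbits hq2 hr2 hrq (rho q H V y)
        (by rw [← map_pow, hyr, map_one]) ((P : Subgroup H).map (rho q H V)) (P.isPGroup'.map _) ?_
      intro v
      obtain ⟨a, ha⟩ := h ((v.toMul : Om q V) : V)
      obtain ⟨t, ht, hty⟩ := exists_smul_eq P ha y
      exact ⟨rho q H V t, ⟨t, ht, rfl⟩, congrArg Additive.ofMul (Subtype.ext hty)⟩
    have hO : ∀ v ∈ Om q V, y • v = v := by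
      intro v hv
      have h3 := LinearEquiv.congr_fun h1 (Additive.ofMul (⟨v, hv⟩ : Om q V))
      exact congrArg (fun x : Additive (Om q V) => ((x.toMul : Om q V) : V)) h3
    have hall : ∀ v : V, y • v = v := by
      intro v
      obtain ⟨n, hn⟩ := hV v
      exact smul_eq_of_Om ((Nat.coprime_primes hr Fact.out).2 hrq) hyr hO n v hn
    have hy1 : y = 1 := by
      apply FaithfulSMul.eq_of_smul_eq_smul (α := V)
      intro v
      rw [hall, one_smul]
    rw [hy1, orderOf_one] at hy
    exact hr.one_lt.ne hy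
  exact IsPGroup.of_card
    (Nat.eq_prime_pow_of_unique_prime_dvd Nat.card_pos.ne' (fun {s} hs h => hone s hs h))

/-- If all orbits have `p`-power size, `p ≠ 2`, then `|H|` is odd. -/
theorem odd_card [Finite H] [Finite V] [FaithfulSMul H V] {p q : ℕ} [Fact p.Prime]
    [Fact q.Prime] (hp2 : p ≠ 2) (hV : IsPGroup q V) (hcop : ¬ q ∣ Nat.card H)
    (h : ∀ v : V, ∃ a : ℕ, (MulAction.stabilizer H v).index = p ^ a) : Odd (Nat.card H) := by
  classical
  by_contra hev
  rw [Nat.not_odd_iff_even] at hev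
  have h2 : Fact (Nat.Prime 2) := ⟨Nat.prime_two⟩
  have h2d : 2 ∣ Nat.card H := hev.two_dvd
  have hq2 : q ≠ 2 := by rintro rfl; exact hcop h2d
  obtain ⟨t, ht⟩ := exists_prime_orderOf_dvd_card' 2 h2d
  have htt : t * t = 1 := by rw [← pow_two, ← ht, pow_orderOf_eq_one]
  obtain ⟨w, hw⟩ : ∃ w : V, t • w ≠ w := by
    by_contra hcon
    push Not at hcon
    have : t = 1 := by
      apply FaithfulSMul.eq_of_smul_eq_smul (α := V)
      intro v
      rw [hcon, one_smul]
    rw [this, orderOf_one] at ht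
    omega
  set v : V := (t • w) * w⁻¹ with hv
  have hv1 : v ≠ 1 := by
    intro h1
    rw [hv, mul_inv_eq_one] at h1
    exact hw h1
  have htv : t • v = v⁻¹ := by
    rw [hv, smul_mul', ← mul_smul, htt, one_smul, smul_inv', mul_inv_rev, inv_inv]
  obtain ⟨a, ha⟩ := h v
  rw [MulAction.index_stabilizer] at ha
  have hO : ∀ u ∈ MulAction.orbit H v, u⁻¹ ∈ MulAction.orbit H v := by
    rintro _ ⟨g, rfl⟩
    refine ⟨g * t, ?_⟩
    change (g * t) • v = (g • v)⁻¹
    rw [mul_smul, htv, smul_inv']
  let f : Function.End (MulAction.orbit H v) := fun u => ⟨(u : V)⁻¹, hO u u.2⟩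
  have hf : f ^ 2 ^ 1 = 1 := by
    funext u
    rw [pow_one, pow_two]
    exact Subtype.ext (inv_inv _)
  have : Fintype (MulAction.orbit H v) := Fintype.ofFinite _
  have hmod := Equiv.Perm.card_fixedPoints_modEq hf
  have hemp : Fintype.card f.fixedPoints = 0 := by
    rw [Fintype.card_eq_zero_iff]
    refine ⟨?_⟩
    rintro ⟨⟨_, g, rfl⟩, hz⟩
    have hz' : (g • v)⁻¹ = g • v := congrArg Subtype.val hz
    rw [← smul_inv'] at hz'
    have h3 : v⁻¹ = v := MulAction.injective g hz'
    have h4 : v ^ 2 = 1 := by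
      rw [pow_two]
      nth_rewrite 1 [← h3]
      exact inv_mul_cancel v
    obtain ⟨n, hn⟩ := hV v
    have h5 : orderOf v = 1 := Nat.eq_one_of_dvd_coprimes
      (Nat.Coprime.pow_right n ((Nat.coprime_primes Nat.prime_two Fact.out).2 (Ne.symm hq2)))
      (orderOf_dvd_of_pow_eq_one h4) (orderOf_dvd_of_pow_eq_one hn)
    exact hv1 (orderOf_eq_one_iff.1 h5)
  rw [hemp, ← Nat.card_eq_fintype_card, Nat.card_coe_set_eq, ha] at hmod
  have h6 : 2 ∣ p ^ a := (Nat.modEq_zero_iff_dvd).1 hmod
  exact hp2 ((Nat.prime_dvd_prime_iff_eq Nat.prime_two Fact.out).1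
    (Nat.prime_two.dvd_of_dvd_pow h6)).symm

end Cfsg.Agent.H541.TwoPowerSolv
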